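import Cfsg.Agent.SymC.Deg

/-! The minimal positive height in blocks of alternating groups (helper16). -/
set_option autoImplicit false
set_option linter.unusedSectionVars false
open Equiv Finset Cfsg.Agent.Char Cfsg.Agent.BMod Cfsg.Agent.Block Cfsg.Agent.Transfer Cfsg.Agent.CharDeep

namespace Cfsg.Agent.SymC

variable {σ : Type*} [Fintype σ] [DecidableEq σ] {Ω : Type*} [Fintype Ω] [DecidableEq Ω] {p : ℕ} [hp : Fact p.Prime]
variable {κ : σ → ℤ} {w : ℕ} {M : Ideal AlgInt} [PMod p M] {B : Set (IrrCharacter (Perm Ω))} {P : Subgroup (Perm Ω)}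

theorem deg_or {G : Type*} [Group G] [Fintype G] {N : Subgroup G} [N.Normal] (hN : N.index ≤ 2) {χ : IrrCharacter G}
    {θ : IrrCharacter N} (h : LiesOver N χ θ) : charDegree χ.1 = charDegree θ.1 ∨ charDegree χ.1 = 2 * charDegree θ.1 := by
  have := Fintype.ofFinite N
  have h1 := apply_one_eq_mul_index N χ.2 θ.2 (liesOver_iff.1 h)
  obtain ⟨e, he⟩ := IsCharacter.exists_nat_classInner (χ.2.isCharacter.restrict N) θ.2.isCharacter
  rw [he, ← deg_cast_irr, ← deg_cast_irr] at h1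
  have h2 : charDegree χ.1 = e * (inertia N θ.1).index * charDegree θ.1 := by exact_mod_cast h1
  generalize e * (inertia N θ.1).index = k at h2
  have h3 := deg_ne_zero χ.2
  have h4 := Nat.pos_of_ne_zero (deg_ne_zero θ.2)
  obtain rfl | rfl | rfl | hk : k = 0 ∨ k = 1 ∨ k = 2 ∨ 3 ≤ k := by omega
  · simp [h2] at h3
  · exact .inl (by simp [h2])
  · exact .inr h2
  have h5 : indFun N θ.1 1 = (N.index * charDegree θ.1 : ℕ) := by rw [indFun_one, ← deg_cast_irr]; simp
  have h6 : N.index * charDegree θ.1 < charDegree χ.1 := by rw [h2]; gcongr; omega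
  have := eq_of_constituent_of_re_le (isCharacter_indFun N θ.2.isCharacter) χ.2 (by
    rw [classInner_indFun_left _ _ χ.2.isClassFunction, ← conj_classInner, map_ne_zero]; exact liesOver_iff.1 h)
    (by rw [h5, ← deg_cast_irr]; exact_mod_cast h6.le)
  rw [this, ← deg_cast_irr, Nat.cast_inj] at h5
  omega

theorem exists_height_one (hN : 2 * Fintype.card Ω ≤ Fintype.card σ) (hB : IsPBlock M B) (hκ : Core p Ω κ w)
    (hc : ∀ χ ∈ B, Cls p κ χ.1) {i i' j : σ} (h : Tp p κ i i' j) (hP : IsDefectGroup p M B P) (hw : p ≤ w) (hw' : 3 ≤ w) :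
    ∃ χ ∈ B, blockHeight p B χ.1 = 1 ∧ (p = 2 → ∃ g, Perm.sign g = -1 ∧ χ.1 g ≠ 0) := by
  have hodd : p = 2 → ¬ p ∣ w → ∀ χ ∈ B, ∃ g, Perm.sign g = -1 ∧ χ.1 g ≠ 0 := by
    rintro rfl h1 χ hχ
    obtain ⟨x, -, hx⟩ := exists_type_SY' (univ : Finset Ω) hκ.le
    exact ⟨x, by rw [sign_type hx, Odd.neg_one_pow (Nat.odd_iff.2 (by omega))], hκ.ne_zero (hc χ hχ) hx⟩
  rcases exists_val hw with ⟨a, h1, h2⟩ | ⟨h1, h2⟩
  · obtain ⟨b, e⟩ := Nat.exists_eq_add_of_le h1
    obtain ⟨χ, hχ, ε, h3⟩ := exists_cfg hN hB hκ hc h (a := a) (c := 0) (b := b) (Nat.zero_le _) e.symm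
    refine ⟨χ, hχ, by rw [height_eq hN hB hκ hc h hP hχ h3 (cfg_mod _ _ _), ← h2, ← h.np0 w a b e.symm]; rfl, fun h4 => ?_⟩
    by_cases h5 : p ∣ w
    swap
    · exact hodd h4 h5 χ hχ
    subst h4
    obtain ⟨g, -, hg⟩ := exists_type_SY (univ : Finset Ω) (m := 4 ::ₘ Multiset.replicate (w - 2) 2)
      (by have := hκ.le; simp; omega) fun a ha => by
        rcases Multiset.mem_cons.1 ha with rfl | h
        exacts [by omega, (Multiset.eq_of_mem_replicate h).ge]
    refine ⟨g, by rw [Perm.sign_of_cycleType, hg]; exact Odd.neg_one_pow (Nat.odd_iff.2 (by simp; omega)), fun h0 =>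
      four_ne_zero hκ h e.symm hw' hg ?_⟩
    rw [show th σ (cfg 2 κ i i' j a 0 b) = _ from h3, Pi.smul_apply, h0, smul_zero]
  · obtain ⟨b, e⟩ := Nat.exists_eq_add_of_lt (hw.lt_of_ne fun e => h1 e.dvd)
    obtain ⟨χ, hχ, ε, h3⟩ := exists_cfg hN hB hκ hc h (a := p) (c := 1) (b := b) hp.out.pos (by omega)
    refine ⟨χ, hχ, ?_, fun h4 => hodd h4 h1 χ hχ⟩
    obtain ⟨q, hq⟩ := Nat.exists_eq_add_one_of_ne_zero hp.out.ne_zero
    have h4 := h.np1 w q b (by omega)
    rw [← Nat.cast_succ, Nat.succ_eq_add_one, show q + 2 = q + 1 + 1 from rfl, ← hq] at h4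
    rw [height_eq hN hB hκ hc h hP hχ h3 (cfg_mod _ _ _), Nat.cast_one, h4,
      padicValNat.mul hp.out.ne_zero (Nat.choose_pos (by omega)).ne', h2, padicValNat_self]

local notation "𝐀" => alternatingGroup Ω

theorem index_alt_le : (𝐀).index ≤ 2 := by
  rcases subsingleton_or_nontrivial Ω with h | h
  · rw [Subsingleton.elim (𝐀) ⊤, Subgroup.index_top]; omega
  · exact alternatingGroup.index_eq_two.le

theorem alt_height {b : Set (IrrCharacter 𝐀)} {D : Subgroup 𝐀} (hb : IsPBlock M b) (hD : IsDefectGroup p M b D) :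
    ((∃ χ : IrrCharacter 𝐀, χ ∈ b ∧ blockHeight p b χ.1 = 1) ∧ ∃ φ : IrrCharacter D, charDegree φ.1 = p) ∨
      ((∀ χ : IrrCharacter 𝐀, χ ∈ b → blockHeight p b χ.1 = 0) ∧ IsMulCommutative D) := by
  classical
  obtain ⟨B, P, hB, hcov, hP, hPD⟩ := exists_cover hb hD
  have hN : 2 * Fintype.card Ω ≤ Fintype.card (Fin (2 * Fintype.card Ω + p + 1)) := by simp; omega
  obtain ⟨κ, w, hκ, hc⟩ := exists_cls (p := p) hN hB
  obtain ⟨i, i', j, hT⟩ := exists_tp hκ.cf hκ.dc (m := Fintype.card Ω - p * w) (by have := hκ.sum; omega) (by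
    have : (0 : ℤ) ≤ p * w := by positivity
    simp only [Fintype.card_fin]; push_cast; omega)
  obtain ⟨y, Y, hy, h2, h3, h4, h5⟩ := exists_struct hB hκ hc hP
  obtain ⟨x, h6, h7⟩ := exists_type_SY' Y h3.ge
  have h8 : ∀ a ∈ x.support, y a = a := fun a ha => h4 a (by_contra fun e => Perm.mem_support.1 ha (h6 a e))
  have h9 := card_sylow_SY h5 h3.ge (by simp [h3, hp.out.pos])
  have c1 := IsDefectGroup.card_eq hb hD
  have c2 := IsDefectGroup.card_eq hB hP
  have c3 := factorization_card_add_index p (𝐀)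
  have key : ∀ χ ∈ B, ∀ θ ∈ b, LiesOver 𝐀 χ.1 θ.1 → (p = 2 → 0 < w ∧ ∃ g, Perm.sign g = -1 ∧ χ.1 g ≠ 0) →
      blockHeight p b θ.1 = blockHeight p B χ.1 := fun χ hχ θ hθ h h' => by
    have d1 := deg_add_defect p hχ
    have d2 := deg_add_defect p hθ
    by_cases hp2 : p = 2
    · obtain ⟨hw, g, e1, e2⟩ := h' hp2
      subst hp2
      obtain ⟨t, h11, h12⟩ := exists_odd h2 h7 h8 hw
      have h13 := card_two hPD h11 h12
      rw [c1, c2, ← pow_succ', Nat.pow_right_inj (by omega)] at h13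
      have : Nontrivial Ω := Fintype.one_lt_card_iff_nontrivial.1 (by have := hκ.le; omega)
      rw [alternatingGroup.index_eq_two, Nat.prime_two.factorization_self] at c3
      have : charDegree θ.1 = charDegree χ.1 := by rw [← res_eq h e1 e2]; rfl
      rw [this] at d2; omega
    · have h10 : ¬ p ∣ 2 := fun e => hp2 ((Nat.prime_dvd_prime_iff_eq hp.out Nat.prime_two).1 e)
      rw [← Subgroup.card_subtype, ← hPD, inf_eq_left.2 (le_alt hp2 h2.isPGroup), c2, Nat.pow_right_inj hp.out.one_lt] at c1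
      rw [Nat.factorization_eq_zero_of_not_dvd (n := (𝐀).index) fun e => by
        have := Nat.le_of_dvd (Nat.pos_of_ne_zero Subgroup.index_ne_zero_of_finite) e
        have := index_alt_le (Ω := Ω); have := hp.out.two_le; omega] at c3
      rcases deg_or index_alt_le h with e | e <;> rw [e] at d1
      · omega
      · rw [Nat.factorization_mul two_ne_zero (deg_ne_zero θ.2), Finsupp.add_apply,
          Nat.factorization_eq_zero_of_not_dvd h10] at d1
        omega
  by_cases hw : p ≤ w ∧ 3 ≤ w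
  · obtain ⟨χ, hχ, h10, h11⟩ := exists_height_one hN hB hκ hc hT hP hw.1 hw.2
    obtain ⟨θ, hθ, h12⟩ := Covers.subset_overSet hcov hB (IsPBlock.isBlockUnion hb) hχ
    exact .inl ⟨⟨θ, hθ, (key χ hχ θ hθ h12 fun e => ⟨by omega, h11 e⟩).trans h10⟩, exists_deg_alt h5 h3 hw.1 hw.2 hPD⟩
  right
  by_cases hp2 : p = 2
  · subst hp2
    have h10 : Nat.card D = 1 ∨ Nat.card D = 2 ^ 2 := by
      rcases Nat.eq_zero_or_pos w with rfl | h
      · have := Subgroup.card_dvd_of_le (hPD.ge.trans inf_le_left)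
        rw [Subgroup.card_subtype, h9] at this
        exact .inl (by simpa using this)
      obtain ⟨t, h11, h12⟩ := exists_odd h2 h7 h8 h
      have h13 := h9.symm.trans (card_two hPD h11 h12)
      obtain rfl | rfl : w = 1 ∨ w = 2 := by omega
      · rw [Nat.factorial_one, padicValNat_one_right] at h13; omega
      · rw [Nat.factorial_two, padicValNat_self] at h13; omega
    refine ⟨fun χ hχ => by_contra fun n => ?_, h10.elim (fun e => ?_) IsPGroup.isMulCommutative_of_card_eq_prime_sq⟩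
    · have := height_add_two_le hb hχ n
      have : blockDefect 2 b ≤ 2 := (Nat.pow_le_pow_iff_right one_lt_two).1 (by omega)
      omega
    · have := (Nat.card_eq_one_iff_unique.1 e).1
      exact ⟨⟨fun _ _ => Subsingleton.elim _ _⟩⟩
  have hw' : w < p := by have := hp.out.two_le; omega
  refine ⟨fun θ hθ => ?_, ⟨⟨fun a c => ?_⟩⟩⟩
  · obtain ⟨χ, hχ, h⟩ := Covers.exists_liesOver hcov hB hb hθ
    obtain ⟨α, ε, e1, e2⟩ := hc χ hχ
    rw [key χ hχ θ hθ h (absurd · hp2), height_eq hN hB hκ hc hT hP hχ e1 e2,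
      padicValNat.eq_zero_of_not_dvd (hκ.not_dvd_np hN hw' (cf_th e1).1 (cf_th e1).2 e2)]
  · obtain ⟨A, h11, h12, h13, -⟩ := exists_elem h2 h7 h8
    obtain rfl : A = P := Subgroup.eq_of_le_of_card_ge h11 (by
      rw [h9, h12, padicValNat.eq_zero_of_not_dvd (by rw [hp.out.dvd_factorial]; omega), add_zero])
    exact Subtype.ext (Subtype.ext (h13 _ (hPD.ge ⟨_, a.2, rfl⟩).1 _ (hPD.ge ⟨_, c.2, rfl⟩).1))

end Cfsg.Agent.SymC
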