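import Cfsg.Agent.SymC.Nak

/-! Irreducible characters of degree `p` of Sylow subgroups of symmetric groups (helper16). -/
set_option autoImplicit false
set_option linter.unusedSectionVars false
open Equiv Finset Cfsg.Agent.Char Cfsg.Agent.BMod Cfsg.Agent.Block Cfsg.Agent.Transfer Cfsg.Agent.CharDeep

namespace Cfsg.Agent.SymC

variable {Ω : Type*} [Fintype Ω] [DecidableEq Ω] {p : ℕ} [hp : Fact p.Prime] {P : Subgroup (Perm Ω)} {Y : Finset Ω}

/-- the orbitwise closure -/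
def ocl (H : Subgroup P) : Subgroup (Perm Ω) where
  carrier := {g | ∀ a, ∃ h ∈ H, ∀ k ∈ H, g (k.1 a) = h.1 (k.1 a)}
  one_mem' := fun _ => ⟨1, one_mem _, fun _ _ => rfl⟩
  mul_mem' := fun {f g} hf hg a => by
    obtain ⟨h, h1, h2⟩ := hf a
    obtain ⟨l, h3, h4⟩ := hg a
    exact ⟨h * l, mul_mem h1 h3, fun k hk => by rw [Perm.mul_apply, h4 k hk]; exact h2 _ (mul_mem h3 hk)⟩
  inv_mem' := fun {f} hf a => by
    obtain ⟨h, h1, h2⟩ := hf a
    exact ⟨h⁻¹, inv_mem h1, fun k hk => by simpa [symm_apply_eq] using (h2 _ (mul_mem (inv_mem h1) hk)).symm⟩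

theorem ocl_le (hP : IsSylowIn p P (SY Y)) (H : Subgroup P) [hH : H.Normal] : ocl H ≤ P := by
  obtain ⟨d, hd⟩ := IsPGroup.iff_card.1 hP.isPGroup
  refine mem_of_norm hP (fun g => ⟨d, Subtype.ext (Perm.ext fun a => ?_)⟩) (fun g hg a ha => ?_) fun u hu => ?_
  · obtain ⟨h, h1, h2⟩ := g.2 a
    have : ∀ n : ℕ, (g.1 ^ n) a = (h ^ n).1 a := fun n => by
      induction n with
      | zero => rfl
      | succ n ih => rw [pow_succ', Perm.mul_apply, ih, h2 _ (pow_mem h1 n), pow_succ']; rfl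
    rw [Subgroup.coe_pow, this, ← hd, pow_card_eq_one']; rfl
  · obtain ⟨h, -, h2⟩ := hg a
    exact (h2 1 (one_mem _)).trans (hP.le h.2 a ha)
  · have key : ∀ u : P, ∀ g ∈ ocl H, u.1 * g * u.1⁻¹ ∈ ocl H := fun u g hg a => by
      obtain ⟨h, h1, h2⟩ := hg (u.1⁻¹ a)
      exact ⟨_, hH.conj_mem h h1 u, fun k hk => by simpa using h2 _ (hH.conj_mem' k hk u)⟩
    exact Subgroup.mem_normalizer_iff.2 fun g => ⟨key ⟨u, hu⟩ g, fun hg => by simpa [mul_assoc] using key ⟨u, hu⟩⁻¹ _ hg⟩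

theorem exists_part (hP : IsSylowIn p P (SY Y)) (H : Subgroup P) [hH : H.Normal] {h : P} (hh : h ∈ H) (a : Ω) :
    ∃ r : P, r.1 a = h.1 a ∧ ∀ b, (∀ k ∈ H, k.1 a ≠ b) → r.1 b = b := by
  classical
  let O : Ω → Prop := fun b => ∃ k ∈ H, k.1 a = b
  have h1 : ∀ k ∈ H, ∀ b, O (k.1 b) ↔ O b := fun k hk b =>
    ⟨fun ⟨l, hl, e⟩ => ⟨k⁻¹ * l, mul_mem (inv_mem hk) hl, by simp [e]⟩, fun ⟨l, hl, e⟩ => ⟨k * l, mul_mem hk hl, by simp [e]⟩⟩
  let r := Perm.ofSubtype (h.1.subtypePerm (p := O) (h1 h hh))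
  have h2 : ∀ b, O b → r b = h.1 b := fun b hb => Perm.ofSubtype_apply_of_mem (p := O) _ hb
  have h3 : ∀ b, ¬ O b → r b = b := fun b hb => Perm.ofSubtype_apply_of_not_mem (p := O) _ hb
  refine ⟨⟨r, ocl_le hP H fun b => ?_⟩, h2 a ⟨1, one_mem _, rfl⟩, fun b hb => h3 b fun ⟨k, hk, e⟩ => hb k hk e⟩
  by_cases hb : O b
  · exact ⟨h, hh, fun k hk => h2 _ ((h1 k hk b).2 hb)⟩
  · exact ⟨1, one_mem _, fun k hk => h3 _ (mt (h1 k hk b).1 hb)⟩

theorem index_of_card {G : Type*} [Group G] [Finite G] {H : Subgroup G} {d : ℕ} (h : Nat.card G = p ^ (d + 1))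
    (h' : Nat.card H = p ^ d) : H.index = p ∧ H.Normal := by
  have := H.index_mul_card
  rw [h, h', pow_succ', Nat.mul_left_inj (pow_ne_zero _ hp.out.ne_zero)] at this
  exact ⟨this, Subgroup.normal_of_index_eq_minFac_card (by rw [this, h, hp.out.pow_minFac (by omega)])⟩

theorem exists_deg (hP : IsSylowIn p P (SY Y)) (hY : p ^ 2 ≤ #Y) : ∃ (χ : P → ℂ) (a b : Ω), IsIrrCharacter P χ ∧ χ 1 = p ∧
    (p = 2 → ∀ t : P, t.1 a = a → t.1 b = b → χ t ≠ 0) := by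
  classical
  have := Fintype.ofFinite P
  have h0 := hp.out.one_lt
  obtain ⟨c, h1, h2⟩ := exists_type_SY Y (m := {p ^ 2}) (by simpa using hY) (by simp; nlinarith)
  obtain ⟨u, -, hu⟩ := hP.exists_conj_le (Q := Subgroup.zpowers c) (isPGroup_zpowers_of_orderOf ⟨2, by
    rw [← Perm.lcm_cycleType, h2]; simp⟩) (Subgroup.zpowers_le.2 h1)
  have h3 : u * c * u⁻¹ ∈ P := hu (Subgroup.smul_mem_pointwise_smul _ _ _ (Subgroup.mem_zpowers c))
  rw [← Perm.cycleType_conj (τ := u)] at h2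
  generalize u * c * u⁻¹ = c at h2 h3
  have h4 : c.IsCycle := Perm.card_cycleType_eq_one.1 (by simp [h2])
  obtain ⟨a, ha, h5⟩ := id h4
  let S := MulAction.stabilizer P a
  have h6 : p ^ 2 ≤ S.index := by
    rw [MulAction.index_stabilizer, ← Multiset.sum_singleton (p ^ 2), ← h2, Perm.sum_cycleType, ← Set.ncard_coe_finset]
    refine Set.ncard_le_ncard fun b hb => ?_
    obtain ⟨i, hi⟩ := h5 (Perm.mem_support.1 hb)
    exact ⟨⟨c ^ i, zpow_mem h3 i⟩, hi⟩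
  obtain ⟨d, hd⟩ := IsPGroup.iff_card.1 hP.isPGroup
  obtain ⟨e, -, he⟩ := (Nat.dvd_prime_pow hp.out).1 (hd ▸ S.card_subgroup_dvd_card)
  have h7 : e + 2 ≤ d := (Nat.pow_le_pow_iff_right h0).1 (by
    rw [← hd, ← S.card_mul_index, he, pow_add]; gcongr)
  obtain ⟨d, rfl⟩ := Nat.exists_eq_add_of_le' (le_of_add_le_right h7)
  obtain ⟨H₂, h8, h9⟩ := Sylow.exists_subgroup_card_pow_prime_le p (m := d) (hd ▸ pow_dvd_pow p (by omega)) S he (by omega)
  obtain ⟨H₁, h10, h11⟩ := Sylow.exists_subgroup_card_pow_prime_le p (m := d + 1) (hd ▸ pow_dvd_pow p (by omega)) H₂ h8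
    (by omega)
  obtain ⟨h12, _⟩ := index_of_card hd h10
  obtain ⟨h13, _⟩ := index_of_card (H := H₂.subgroupOf H₁) h10
    (by rw [Nat.card_congr (Subgroup.subgroupOfEquivOfLe h11).toEquiv, h8])
  have := isCyclic_of_prime_card (α := H₁ ⧸ H₂.subgroupOf H₁) h13
  have := (Finite.one_lt_card_iff_nontrivial (α := H₁ ⧸ H₂.subgroupOf H₁)).1 (h0.trans_eq h13.symm)
  obtain ⟨q, hq⟩ := exists_ne (1 : H₁ ⧸ H₂.subgroupOf H₁)
  obtain ⟨h, rfl⟩ := QuotientGroup.mk_surjective q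
  letI := IsCyclic.commGroup (α := H₁ ⧸ H₂.subgroupOf H₁)
  obtain ⟨φ, hφ⟩ := CommGroup.exists_apply_ne_one_of_hasEnoughRootsOfUnity _ ℂ hq
  let l : H₁ →* ℂˣ := φ.comp (QuotientGroup.mk' _)
  have hl : ∀ k : H₁, k.1.1 a = a → l k = 1 := fun k hk => by
    rw [MonoidHom.comp_apply, QuotientGroup.mk'_apply, (QuotientGroup.eq_one_iff (N := H₂.subgroupOf H₁) k).2 (h9 hk), map_one]
  obtain ⟨s, hs⟩ : ∃ s, s ∉ H₁ := by_contra fun n => by
    rw [(Subgroup.eq_top_iff' H₁).2 (by simpa using n), Subgroup.index_top] at h12; omega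
  refine ⟨indFun H₁ fun k => l k, a, s.1⁻¹ a, isIrr_indFun_of_inertia_le _ (isIrrCharacter_hom l) fun g hg => ?_,
    by simp [indFun_one, h12], fun e t h14 h15 => ?_⟩
  · by_contra hn
    obtain ⟨r, h14, h15⟩ := exists_part hP H₁ h.2 a
    have h16 : h.1⁻¹ * r ∈ H₁ := h11 (h9 (show (h.1⁻¹ * r).1 a = a by simp [h14]))
    have h17 : r ∈ H₁ := by simpa using mul_mem h.2 h16
    have h18 := hl ⟨_, h16⟩ (by simp [h14])
    have h19 := (mem_inertia' _).1 hg ⟨r, h17⟩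
    rw [hl _ (by
      simpa [← Perm.eq_inv_iff_eq] using h15 (g.1⁻¹ a) fun k hk e => hn (by
        simpa using mul_mem (h11 (h9 (show (g * k).1 a = a by simp [e]))) (inv_mem hk))), eq_comm, Units.val_inj] at h19
    rw [show (⟨_, h16⟩ : H₁) = h⁻¹ * ⟨r, h17⟩ from rfl, map_mul, h19, mul_one, map_inv, inv_eq_one] at h18
    exact hφ h18
  · rw [indFun_apply', sum_congr rfl (g := fun _ => 1) fun x _ => ?_]
    · simp [Nat.card_pos.ne']
    obtain ⟨k, hk, v, hv, e⟩ : ∃ k ∈ H₁, ∃ v : P, v.1 a = a ∧ x * t * x⁻¹ = k * v * k⁻¹ := by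
      by_cases hx : x ∈ H₁
      · exact ⟨x, hx, t, h14, rfl⟩
      · exact ⟨x * s⁻¹, (Subgroup.mul_mem_iff_of_index_two (h12.trans e)).2 (by simp [hx, hs]), s * t * s⁻¹, by
          rw [Subgroup.coe_mul, Subgroup.coe_mul, Perm.mul_apply, Perm.mul_apply, Subgroup.coe_inv, h15]; simp,
          by group⟩
    rw [e, extendByZero_conj_mem _ (isIrrCharacter_hom l).isClassFunction hk, extendByZero_of_mem _ _ (h11 (h9 hv)),
      hl _ hv, Units.val_one]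

theorem swap_mem_Ex {x : Perm Ω} (h : x ^ 2 = 1) (c : Ω) : swap c (x c) ∈ Ex x := by
  have h1 : ∀ a, x (x a) = a := fun a => by rw [← Perm.mul_apply, ← pow_two, h, Perm.one_apply]
  refine ⟨by rw [Commute, SemiconjBy, mul_swap_eq_swap_mul, h1, swap_comm], fun a => ?_⟩
  rw [swap_apply_def]
  split_ifs with e1 e2
  · exact e1 ▸ (self_mem_Ex x).2 _
  · exact e2 ▸ ((self_mem_Ex x).2 c).symm
  · exact .refl _ _

theorem exists_swap {w : ℕ} (hP : IsSylowIn 2 P (SY Y)) (hY : #Y = 2 * w) (hw : 3 ≤ w) (a b : Ω) :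
    ∃ t ∈ P, Perm.sign t = -1 ∧ t a = a ∧ t b = b := by
  obtain ⟨x, h1, h2⟩ := exists_central hP hY
  have h3 := pow_eq_one_of_type h2
  have h4 : ∀ a, x (x a) = a := fun a => by rw [← Perm.mul_apply, ← pow_two, h3, Perm.one_apply]
  obtain ⟨c, h5, h6⟩ := exists_mem_notMem_of_card_lt_card (s := {a, x a, b, x b}) (t := x.support)
    (card_le_four.trans_lt (by rw [card_support_type h2]; omega))
  simp only [mem_insert, mem_singleton, not_or] at h6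
  refine ⟨_, mem_of_norm hP (Ex_pgroup h3) (fun g hg a ha => ?_) (le_trans (fun g hg => ?_) (Ex_norm x)) (swap_mem_Ex h3 c),
    Perm.sign_swap (Perm.mem_support.1 h5).symm, swap_apply_of_ne_of_ne (Ne.symm h6.1) fun e => h6.2.1 (by rw [e, h4]),
    swap_apply_of_ne_of_ne (Ne.symm h6.2.2.1) fun e => h6.2.2.2 (by rw [e, h4])⟩
  · exact ((hg.2 a).eq_of_left (hP.le h1.1 a ha)).symm
  · rw [centralizer_zpowers, Subgroup.mem_centralizer_singleton_iff]
    exact h1.2 g hg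

local notation "𝐀" => alternatingGroup Ω

theorem exists_deg_alt {w : ℕ} (hP : IsSylowIn p P (SY Y)) (hY : #Y = p * w) (hw : p ≤ w) (hw' : 3 ≤ w)
    {D : Subgroup 𝐀} (h : P ⊓ 𝐀 = D.map (𝐀).subtype) : ∃ φ : IrrCharacter D, charDegree φ.1 = p := by
  obtain ⟨χ, a, b, h1, h2, h3⟩ := exists_deg hP (by rw [hY, pow_two]; gcongr)
  let f : D →* (𝐀).subgroupOf P := (((𝐀).subtype.comp D.subtype).codRestrict P fun d =>
    (h.ge ⟨d.1, d.2, rfl⟩).1).codRestrict _ fun d => d.1.2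
  have hf : Function.Surjective f := fun ⟨⟨g, h4⟩, h5⟩ => by
    obtain ⟨d, hd, rfl⟩ := h.le ⟨h4, h5⟩
    exact ⟨⟨d, hd⟩, rfl⟩
  suffices h4 : IsIrrCharacter ((𝐀).subgroupOf P) fun n => χ n from
    ⟨⟨_, h4.comp_of_surjective f hf⟩, charDegree_eq_of_apply_one (by simpa using h2)⟩
  by_cases hp2 : p = 2
  · subst hp2
    obtain ⟨t, h4, h5, h6, h7⟩ := exists_swap hP hY hw' a b
    have h8 : ∀ g : P, (g : P ⧸ (𝐀).subgroupOf P) = 1 ∨ (g : P ⧸ (𝐀).subgroupOf P) = (⟨t, h4⟩ : P) := fun g => by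
      by_cases hg : g.1 ∈ 𝐀
      · exact .inl ((QuotientGroup.eq_one_iff _).2 hg)
      · exact .inr (QuotientGroup.eq.2 (odd_mul h5 _ (mt (Subgroup.inv_mem_iff _).1 hg)).1)
    refine isIrr_res_of_free (fun a b => ?_) ⟨χ, h1⟩ fun l hl => ?_
    · obtain ⟨a, rfl⟩ := QuotientGroup.mk_surjective a
      obtain ⟨b, rfl⟩ := QuotientGroup.mk_surjective b
      rcases h8 a with h | h <;> rcases h8 b with h' | h' <;> simp [h, h']
    · ext a
      rcases h8 a with h | h <;> simp [h, hl _ (h3 rfl ⟨t, h4⟩ h6 h7)]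
  · exact h1.comp_of_surjective ((𝐀).subgroupOf P).subtype fun g => ⟨⟨g, le_alt hp2 hP.isPGroup g.2⟩, rfl⟩

end Cfsg.Agent.SymC
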