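import Cfsg.Agent.SymC.Np
import Cfsg.Agent.SymC.Alt

/-! Nakayama's conjecture (`nakayama`) and the heights in blocks of symmetric groups (`height_eq`) (helper16). -/
set_option autoImplicit false
set_option linter.unusedSectionVars false
open Equiv Finset Cfsg.Agent.Char Cfsg.Agent.BMod Cfsg.Agent.Block Cfsg.Agent.Transfer Cfsg.Agent.CharDeep
open scoped Pointwise

namespace Cfsg.Agent.SymC

variable {σ : Type*} [Fintype σ] [DecidableEq σ] {Ω : Type*} [Fintype Ω] [DecidableEq Ω] {p : ℕ} [hp : Fact p.Prime]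
variable {κ : σ → ℤ} {w : ℕ} {M : Ideal AlgInt} [PMod p M] {B : Set (IrrCharacter (Perm Ω))} {P : Subgroup (Perm Ω)}

theorem parts_mul {x g : Perm Ω} (hx : x.cycleType = Multiset.replicate w p) (h : ∀ a ∈ x.support, g a = a) :
    (x * g).partition.parts = Multiset.replicate w p +
      (g.cycleType + Multiset.replicate (Fintype.card Ω - (p * w + #g.support)) 1) := by
  have hd : Perm.Disjoint x g := fun a => by
    by_cases ha : a ∈ x.support
    exacts [.inr (h a ha), .inl (Perm.notMem_support.1 ha)]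
  rw [Perm.parts_partition, hd.cycleType_mul, hd.card_support_mul, hx, card_support_type hx, add_assoc]

theorem self_mem_Ex (x : Perm Ω) : x ∈ Ex x :=
  ⟨Commute.refl x, fun _ => Perm.sameCycle_apply_right.2 (Perm.SameCycle.refl _ _)⟩

theorem nakayama (hB : IsPBlock M B) (hκ : Core p Ω κ w) (hc : ∀ χ ∈ B, Cls p κ χ.1) {ψ : IrrCharacter (Perm Ω)}
    (hψ : Cls p κ ψ.1) : ψ ∈ B := by
  obtain ⟨x, -, hx⟩ := exists_type_SY' (univ : Finset Ω) hκ.le
  have h1 := pow_eq_one_of_type hx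
  let H := Subgroup.centralizer ({x} : Set (Perm Ω))
  let x' : H := ⟨x, Subgroup.mem_centralizer_singleton_iff.2 rfl⟩
  let e := idemS H (corr M H B)
  have h2 : e ∈ supp ℂ (H ⊓ Subgroup.centralizer (Ex x : Set (Perm Ω))) :=
    idem_mem_supp_centralizer (M := M) (Ex_pgroup h1) (fun g hg => Subgroup.mem_centralizer_singleton_iff.2 hg.1)
      ((centralizer_zpowers x).ge.trans (Ex_norm x)) (idemS_mem_Zc _ _) (idemS_idem _ _) (idemS_mem_OG' isBlockUnion_corr)
  have key : ∀ χ : IrrCharacter (Perm Ω), Cls p κ χ.1 → ∃ u : ℂ, u ≠ 0 ∧ blockPart B χ.1 x = u *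
      ∑ g, e.coeff g * T σ (g.cycleType + Multiset.replicate (Fintype.card Ω - (p * w + #g.support)) 1) κ := by
    rintro χ ⟨α, ε, h3, h4⟩
    obtain ⟨h5, η, h6⟩ := hκ.val (cf_th h3).1 (cf_th h3).2 h4
    refine ⟨((ε * η : ℤˣ) : ℤ) * np p w α, mul_ne_zero (by simp) (Nat.cast_ne_zero.2 h5.ne'), ?_⟩
    rw [blockPart_section_centralizer χ.2.isClassFunction (IsPBlock.isBlockUnion hB) (h := x') (isPPart_self h1),
      blockPart_res_apply χ.2.isClassFunction, ev_mul_single, mul_sum]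
    refine sum_congr rfl fun g _ => ?_
    by_cases h7 : e.coeff g = 0
    · change e.coeff g * _ = _
      simp [h7]
    have h8 : g ∈ H ⊓ _ := by_contra fun n => h7 (h2 g n)
    have h9 : ¬ p ∣ orderOf g := fun n => h7 (by
      change (inc H _).coeff g = 0
      rw [coeff_inc_of_mem _ h8.1, coeff_idem]
      exact blockCoeff_eq_zero_of_dvd (M := M) isBlockUnion_corr (by rwa [Subgroup.orderOf_mk]))
    have := h6 _ _ (parts_mul hx fun a ha => fix_of_Ex h1 h9 (fun k hk => (h8.2 k hk).symm) (Perm.mem_support.1 ha))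
    rw [h3, Pi.smul_apply, smul_eq_mul, ← Subgroup.mem_centralizer_singleton_iff.1 h8.1] at this
    have h10 : ((ε : ℤ) : ℂ) * (ε : ℤ) = 1 := by rw [← Int.cast_mul, ← Units.val_mul, Int.units_mul_self]; simp
    change e.coeff g * χ.1 (g * x) = _
    push_cast
    linear_combination (e.coeff g * ((ε : ℤ) : ℂ)) * this - e.coeff g * χ.1 (g * x) * h10
  obtain ⟨χ, hχ⟩ := IsPBlock.nonempty hB
  obtain ⟨u, -, h3⟩ := key χ (hc χ hχ)
  obtain ⟨v, h4, h5⟩ := key ψ hψ
  rw [blockPart_irr_of_mem hχ] at h3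
  by_contra hn
  rw [blockPart_irr_of_notMem hn, Pi.zero_apply, eq_comm, mul_eq_zero] at h5
  exact hκ.ne_zero (hc χ hχ) hx (by rw [h3, h5.resolve_left h4, mul_zero])

theorem mem_of_norm {G : Type*} [Group G] {P K Q : Subgroup G} (hP : IsSylowIn p P K) (hQ : IsPGroup p Q) (h1 : Q ≤ K)
    (h2 : P ≤ Subgroup.normalizer (Q : Set G)) : Q ≤ P :=
  le_sup_right.trans (hP.eq_of_le (hP.isPGroup.to_sup_of_normal_right' hQ h2) (sup_le hP.le h1) le_sup_left).le

theorem exists_central {Y : Finset Ω} (hP : IsSylowIn p P (SY Y)) (hY : #Y = p * w) :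
    ∃ x ∈ P ⊓ Subgroup.centralizer (P : Set (Perm Ω)), x.cycleType = Multiset.replicate w p := by
  obtain ⟨x, hx⟩ := (Perm.exists_with_cycleType_iff Y (m := Multiset.replicate w p)).2
    ⟨by simp [hY, mul_comm], fun a ha => Multiset.eq_of_mem_replicate ha ▸ hp.out.two_le⟩
  let K := (Subgroup.centralizer {x}).map (Perm.ofSubtype (p := (· ∈ Y)))
  have h1 : Nat.card K = p ^ w * w.factorial := by
    rw [Subgroup.card_map_of_injective Perm.ofSubtype_injective, Perm.nat_card_centralizer, hx]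
    rcases Nat.eq_zero_or_pos w with rfl | h
    · simp [hY]
    · simp [hY, mul_comm, Multiset.toFinset_replicate, h.ne']
  have h2 : K ≤ SY Y := by rintro _ ⟨g, -, rfl⟩ a ha; exact Perm.ofSubtype_apply_of_not_mem _ ha
  obtain ⟨Q⟩ := Sylow.nonempty (p := p) (G := K)
  have hQ := isSylowIn_map_subtype Q
  obtain ⟨c, hc1, hc2⟩ := hP.exists_conj_le hQ.isPGroup (hQ.le.trans h2)
  have h3 : MulAut.conj c • _ = P := Subgroup.eq_of_le_of_card_ge hc2 (by
    rw [card_sylow_SY hP hY.ge (by simp [hY, hp.out.pos]), ← Nat.card_congr (Subgroup.equivSMul _ _).toEquiv,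
      Subgroup.card_subtype, Q.card_eq_multiplicity, h1,
      Nat.factorization_def _ hp.out, padicValNat.mul (pow_ne_zero _ hp.out.ne_zero) w.factorial_ne_zero,
      padicValNat.prime_pow])
  have h4 : (c * Perm.ofSubtype x * c⁻¹).cycleType = Multiset.replicate w p := by
    rw [Perm.cycleType_conj, Perm.cycleType_ofSubtype, hx]
  have h5 : c * Perm.ofSubtype x * c⁻¹ ∈ Subgroup.centralizer (P : Set (Perm Ω)) := by
    rw [← h3]
    rintro _ ⟨g, hg, rfl⟩
    obtain ⟨k, hk, rfl⟩ := hQ.le hg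
    simp [mul_assoc, ← map_mul, ← mul_assoc (Perm.ofSubtype _), Subgroup.mem_centralizer_singleton_iff.1 hk]
  refine ⟨_, ⟨mem_of_norm hP (isPGroup_zpowers_of_orderOf (order_of_type h4)) (Subgroup.zpowers_le.2 (mul_mem (mul_mem hc1
    (h2 ⟨x, Subgroup.mem_centralizer_singleton_iff.2 rfl, rfl⟩)) (inv_mem hc1))) (le_trans (fun g hg => ?_)
      (centralizer_le_normalizer' _)) (Subgroup.mem_zpowers _), h5⟩, h4⟩
  rw [centralizer_zpowers, Subgroup.mem_centralizer_singleton_iff]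
  exact h5 g hg

theorem val_deg (hB : IsPBlock M B) (hκ : Core p Ω κ w) {y x : Perm Ω} (hy : IsDefectClass M B y)
    (hP : IsSylowIn p P (Subgroup.centralizer {y})) (hx : x ∈ P ⊓ Subgroup.centralizer (P : Set (Perm Ω)))
    (h1 : x.cycleType = Multiset.replicate w p) (h2 : ∀ a ∈ x.support, y a = a) : ∃ c, ∀ χ ∈ B, ∀ (α : σ → ℤ) (ε : ℤˣ),
      th σ α = ((ε : ℤ) : ℂ) • χ.1 → (∀ i, α i % p = κ i % p) →
      (charDegree χ.1).factorization p = c + padicValNat p (np p w α) := by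
  obtain ⟨t, ht⟩ := T_int (y.cycleType + Multiset.replicate (Fintype.card Ω - (p * w + #y.support)) 1) κ
  refine ⟨padicValNat p ((Subgroup.centralizer {x * y}).index * t.natAbs), fun χ hχ α ε h3 h4 => ?_⟩
  obtain ⟨h5, η, h6⟩ := hκ.val (cf_th h3).1 (cf_th h3).2 h4
  have h7 := h6 _ _ (parts_mul h1 h2)
  have h8 := red_centralChar_mul_ne_zero hB hy hP hx hχ
  have h9 : χ.1 (x * y) = ((ε * η * np p w α * t : ℤ) : ℂ) := by
    rw [h3, Pi.smul_apply, smul_eq_mul, ht] at h7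
    have h10 : ((ε : ℤ) : ℂ) * (ε : ℤ) = 1 := by rw [← Int.cast_mul, ← Units.val_mul, Int.units_mul_self]; simp
    push_cast
    linear_combination ((ε : ℤ) : ℂ) * h7 - χ.1 (x * y) * h10
  have h10 : t ≠ 0 := fun e => apply_ne_zero_of_centralChar h8 (by simp [h9, e])
  have h11 := mul_ne_zero (index_centralizer_ne_zero (x * y)) (Int.natAbs_ne_zero.2 h10)
  rw [← padicValNat.mul h11 h5.ne', ← Nat.factorization_def _ hp.out,
    ← red_natCast_div_ne_zero_iff (M := M) (mul_ne_zero h11 h5.ne') (deg_ne_zero χ.2)]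
  intro h0
  apply h8
  have h12 : (ε * η * np p w α * t : ℤ).natAbs = np p w α * t.natAbs := by simp [Int.natAbs_mul]
  rw [centralChar, h9, ← deg_cast_irr]
  rcases Int.natAbs_eq (ε * η * np p w α * t : ℤ) with e | e <;> rw [e, h12]
  · convert h0 using 2; simp only [Int.cast_natCast, Nat.cast_mul, Int.cast_mul]; ring
  · rw [← neg_eq_zero, ← red_neg]
    convert h0 using 2; simp only [Int.cast_neg, Int.cast_natCast, Nat.cast_mul, Int.cast_mul]; ring

theorem exists_cfg (hN : 2 * Fintype.card Ω ≤ Fintype.card σ) (hB : IsPBlock M B) (hκ : Core p Ω κ w)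
    (hc : ∀ χ ∈ B, Cls p κ χ.1) {i i' j : σ} (h : Tp p κ i i' j) {a c b : ℕ} (ha : c ≤ a) (e : a + c + b = w) :
    ∃ χ ∈ B, ∃ ε : ℤˣ, th σ (cfg p κ i i' j a c b) = ((ε : ℤ) : ℂ) • χ.1 := by
  obtain ⟨h1, ε, h2⟩ := T_one (h.cf_cfg (a := a) (c := c) (b := b) (by omega) (by omega) (by omega)) (m := Fintype.card Ω)
    (by rw [sum_cfg, ← hκ.sum, ← e]; push_cast; rfl)
  obtain ⟨χ, η, h4⟩ := exists_irr hN (α := cfg p κ i i' j a c b) fun e => by
    have := congrFun e 1
    rw [th, Perm.parts_partition] at this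
    simp [h2, h1.ne'] at this
  exact ⟨χ, nakayama hB hκ hc ⟨_, η, h4, cfg_mod _ _ _⟩, η, h4⟩

theorem height_eq (hN : 2 * Fintype.card Ω ≤ Fintype.card σ) (hB : IsPBlock M B) (hκ : Core p Ω κ w)
    (hc : ∀ χ ∈ B, Cls p κ χ.1) {i i' j : σ} (h : Tp p κ i i' j) (hP : IsDefectGroup p M B P) {χ : IrrCharacter (Perm Ω)}
    (hχ : χ ∈ B) {α : σ → ℤ} {ε : ℤˣ} (h1 : th σ α = ((ε : ℤ) : ℂ) • χ.1) (h2 : ∀ i, α i % p = κ i % p) :
    blockHeight p B χ.1 = padicValNat p (np p w α) := by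
  obtain ⟨y, Y, hy, h3, h4, h5, h6⟩ := exists_struct hB hκ hc hP
  obtain ⟨x, h7, h8⟩ := exists_central h6 h4
  obtain ⟨c, h9⟩ := val_deg hB hκ hy h3 h7 h8 fun a ha => h5 a (by_contra fun e => Perm.mem_support.1 ha (h6.le h7.1 a e))
  obtain ⟨ψ, hψ, η, h10⟩ := exists_cfg hN hB hκ hc h (a := w) (c := 0) (b := 0) (Nat.zero_le _) rfl
  have h11 := h9 ψ hψ _ _ h10 (cfg_mod _ _ _)
  rw [show np p w (cfg p κ i i' j w (0 : ℕ) (0 : ℕ)) = _ from h.np0 w w 0 rfl, Nat.choose_self, padicValNat_one_right] at h11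
  have h12 := (height_eq_zero_iff_le p hψ).2 fun θ hθ => by
    obtain ⟨β, ζ, e1, e2⟩ := hc θ hθ
    rw [h11, h9 θ hθ _ _ e1 e2]; omega
  have := deg_add_defect p hψ
  have := deg_add_defect p hχ
  have := h9 χ hχ _ _ h1 h2
  omega

theorem four_ne_zero (hκ : Core 2 Ω κ w) {i i' j : σ} (h : Tp 2 κ i i' j) {a b : ℕ} (e : a + b = w) (hw : 3 ≤ w)
    {g : Perm Ω} (hg : g.cycleType = 4 ::ₘ Multiset.replicate (w - 2) 2) : th σ (cfg 2 κ i i' j a 0 b) g ≠ 0 := by
  have h1 : #g.support = 2 * w := by rw [← Perm.sum_cycleType, hg]; simp; omega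
  have h2 := hκ.T_ne (m := Fintype.card Ω - 2 * w) (by have := hκ.le; omega)
  have h3 : ∀ a b : ℕ, a + b = w - 2 → T σ (Multiset.replicate (w - 2) 2 + Multiset.replicate (Fintype.card Ω - 2 * w) 1)
      (cfg 2 κ i i' j a 0 b) = (w - 2).choose a * T σ (Multiset.replicate (Fintype.card Ω - 2 * w) 1) κ := fun a b e => by
    have h4 := h.vac_cfg (a := a) (c := 0) (b := b) le_rfl (by omega) (by omega)
    rw [T_add, path two_pos (cf_T _) (anti_T _) _ (h.cf_cfg le_rfl (by omega) (by omega)) (by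
      rw [h4, sum_cfg, ← e]; push_cast; ring), h4, h.np0 _ a b e, nsmul_eq_mul]
  have h4 := fun (ρ : Multiset ℕ) (β : σ → ℤ) (h : ¬ Cf β) => not_not.1 (mt (cf_T ρ β) h)
  rw [th, Perm.parts_partition, hg, h1, Multiset.cons_add, T_cons, act_P]
  have := h.sum3 a 0 b two_pos _ (h4 (Multiset.replicate (w - 2) 2 + Multiset.replicate (Fintype.card Ω - 2 * w) 1))
  rw [show (-((4 : ℕ) : ℤ)) = (-((2 : ℕ) * (2 : ℕ))) from rfl, this, zero_sub,
    h4 _ _ (h.not_i' a two_pos b), add_zero]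
  have h5 : ∀ a : ℕ, (∃ a' : ℕ, a = a' + 2 ∧ (a : ℤ) - (2 : ℕ) = a') ∨ a = 1 ∨ a = 0 := fun a => by
    rcases a with _ | _ | a <;> simp
    ring
  have h6 : ∀ a b : ℤ, a = -1 ∨ a = -2 ∨ b = -1 ∨ b = -2 → T σ (Multiset.replicate (w - 2) 2 +
      Multiset.replicate (Fintype.card Ω - 2 * w) 1) (cfg 2 κ i i' j a 0 b) = 0 := by
    rintro a b (rfl | rfl | rfl | rfl) <;> refine h4 _ _ ?_
    exacts [by simpa using h.not_i one_pos b, by simpa using h.not_i two_pos b, by simpa using h.not_j a 0 one_pos,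
      by simpa using h.not_j a 0 two_pos]
  rcases h5 a with ⟨a', e1, e2⟩ | rfl | rfl <;> rcases h5 b with ⟨b', e3, e4⟩ | rfl | rfl
  · rw [e2, e4, h3 _ _ (by omega), h3 _ _ (by omega), ← add_mul, ← Nat.cast_add]
    exact mul_ne_zero (Nat.cast_ne_zero.2 (by have := Nat.choose_pos (show a' ≤ w - 2 by omega); omega)) h2
  · rw [e2, h3 _ _ (by omega), h6 _ (_ - _) (by simp), add_zero]
    exact mul_ne_zero (Nat.cast_ne_zero.2 (Nat.choose_pos (by omega)).ne') h2
  · rw [e2, h3 _ _ (by omega), h6 _ (_ - _) (by simp), add_zero]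
    exact mul_ne_zero (Nat.cast_ne_zero.2 (Nat.choose_pos (by omega)).ne') h2
  · rw [e4, h3 _ _ (by omega), h6 (_ - _) _ (by simp), zero_add]
    exact mul_ne_zero (Nat.cast_ne_zero.2 (Nat.choose_pos (by omega)).ne') h2
  · omega
  · omega
  · rw [e4, h3 _ _ (by omega), h6 (_ - _) _ (by simp), zero_add]
    exact mul_ne_zero (Nat.cast_ne_zero.2 (Nat.choose_pos (by omega)).ne') h2
  · omega
  · omega

end Cfsg.Agent.SymC
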