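import Cfsg.Agent.SymC.Sep

/-! Path counts on the abacus (helper16): the two-runner family `cfg`, multiplicativity over the runners. -/
set_option autoImplicit false
set_option linter.unusedSectionVars false
open Equiv Finset Cfsg.Agent.Char

namespace Cfsg.Agent.SymC

variable {σ : Type*} [Fintype σ] [DecidableEq σ] {p : ℕ} [hp : Fact p.Prime] {κ : σ → ℤ} {i i' j : σ}

/-- two top beads on different runners and the bead before the first one -/
structure Tp (p : ℕ) (κ : σ → ℤ) (i i' j : σ) : Prop where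
  cf : Cf κ
  dc : Dc p κ
  ti : ∀ k, κ k % p = κ i % p → κ k ≤ κ i
  tj : ∀ k, κ k % p = κ j % p → κ k ≤ κ j
  snd : κ i' = κ i - p
  ne : κ i % p ≠ κ j % p

theorem exists_tp (h : Cf κ) (hd : Dc p κ) {m : ℤ} (hs : ∑ i, κ i = d0 σ + m) (hm : p + m < Fintype.card σ) :
    ∃ i i' j, Tp p κ i i' j := by
  have h2 := hp.out.two_le
  obtain ⟨a, ha⟩ := mem_range h.1 h.2 hs (v := p) (by positivity) hm
  obtain ⟨b, hb⟩ := mem_range h.1 h.2 hs (v := 1) (by positivity) (by omega)
  obtain ⟨i, h3, h4⟩ := exists_max_image (univ.filter fun k => κ k % p = κ a % p) κ ⟨a, by simp⟩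
  obtain ⟨j, h5, h6⟩ := exists_max_image (univ.filter fun k => κ k % p = κ b % p) κ ⟨b, by simp⟩
  simp only [mem_filter, mem_univ, true_and] at h3 h4 h5 h6
  obtain ⟨i', h7⟩ := hd i (ha ▸ h4 a rfl)
  refine ⟨i, i', j, h, hd, fun k e => h4 k (e.trans h3), fun k e => h6 k (e.trans h5), h7, ?_⟩
  rw [h3, h5, ha, hb, Int.emod_self, Int.emod_eq_of_lt (by omega) (by omega)]
  exact zero_ne_one

/-- the family -/
def cfg (p : ℕ) (κ : σ → ℤ) (i i' j : σ) (a c b : ℤ) : σ → ℤ :=
  κ + Pi.single i (p * a) + Pi.single i' (p * c) + Pi.single j (p * b)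

theorem cfg_mod (a c b : ℤ) (k : σ) : cfg p κ i i' j a c b k % p = κ k % p := by
  rw [cfg, add_mod _ _ _ (dvd_mul_right _ _), add_mod _ _ _ (dvd_mul_right _ _), add_mod _ _ _ (dvd_mul_right _ _)]

theorem sum_cfg (a c b : ℤ) : ∑ k, cfg p κ i i' j a c b k = ∑ k, κ k + p * (a + c + b) := by
  simp only [cfg, sum_add_single]; ring

theorem Dc.low (hd : Dc p κ) (k : σ) (t : ℕ) : κ k - p * t < 0 ∨ ∃ l, κ l = κ k - p * t := by
  induction t with
  | zero => exact .inr ⟨k, by simp⟩
  | succ t ih =>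
    push_cast
    rw [mul_add_one]
    rcases ih with h | ⟨l, h⟩
    · left; omega
    · by_cases h1 : (p : ℤ) ≤ κ l
      · obtain ⟨m, hm⟩ := hd l h1
        exact .inr ⟨m, by omega⟩
      · left; omega

theorem not_cf (hd : Dc p κ) {β : σ → ℤ} {k : σ} {t : ℕ} (ht : 0 < t) (hk : β k = κ k - p * t)
    (h : ∀ l, κ l = κ k - p * t → β l = κ l) : ¬ Cf β := fun hβ => by
  have := Nat.mul_pos hp.out.pos ht
  rcases hd.low k t with h1 | ⟨l, h1⟩
  · have : 0 ≤ β k := hβ.2 k
    omega
  · have h2 := hβ.1 ((h l h1).trans (h1.trans hk.symm))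
    subst h2
    have : ((p * t : ℕ) : ℤ) = p * t := by push_cast; rfl
    omega

namespace Tp
variable (h : Tp p κ i i' j)
include h

theorem mod' : κ i' % p = κ i % p := by rw [h.snd]; simp

theorem nes : i ≠ i' ∧ i ≠ j ∧ i' ≠ j := by
  refine ⟨fun e => ?_, fun e => h.ne (by rw [e]), fun e => h.ne (by rw [← h.mod', e])⟩
  have := h.snd; have := hp.out.pos; rw [← e] at *; omega

theorem app (a c b : ℤ) (k : σ) : cfg p κ i i' j a c b k =
    κ k + if k = i then p * a else if k = i' then p * c else if k = j then p * b else 0 := by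
  obtain ⟨h1, h2, h3⟩ := h.nes
  simp only [cfg, Pi.add_apply, Pi.single_apply]
  split_ifs <;> simp_all

theorem lt {a c b : ℤ} (hc : 0 ≤ c) (ha : c ≤ a) (hb : 0 ≤ b) {k l : σ} (e : κ k % p = κ l % p) (hl : κ k < κ l) :
    cfg p κ i i' j a c b k < cfg p κ i i' j a c b l := by
  have hp0 : (0 : ℤ) < p := by exact_mod_cast hp.out.pos
  have h1 : 0 ≤ (p : ℤ) * c := by positivity
  have h2 : (p : ℤ) * c ≤ p * a := by gcongr
  have h3 : 0 ≤ (p : ℤ) * b := by positivity
  have h4 : k ≠ i := fun e' => by subst e'; have := h.ti l e.symm; omega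
  have h5 : k ≠ j := fun e' => by subst e'; have := h.tj l e.symm; omega
  rw [h.app, h.app, if_neg h4, if_neg h5]
  by_cases h6 : k = i'
  · subst h6
    have := h.ti l (e.symm.trans h.mod')
    have h7 := le_of_mod (e.symm.trans h.mod').symm (by have := h.snd; omega)
    rw [if_pos rfl, if_pos (h.cf.1 (this.antisymm h7))]; omega
  · rw [if_neg h6]; split_ifs <;> omega

theorem lt_iff {a c b : ℤ} (hc : 0 ≤ c) (ha : c ≤ a) (hb : 0 ≤ b) {k l : σ} (e : κ k % p = κ l % p) :
    cfg p κ i i' j a c b k < cfg p κ i i' j a c b l ↔ κ k < κ l := by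
  refine ⟨fun h1 => ?_, h.lt hc ha hb e⟩
  rcases lt_trichotomy (κ k) (κ l) with h2 | h2 | h2
  · exact h2
  · rw [h.cf.1 h2] at h1; exact absurd h1 (lt_irrefl _)
  · exact absurd h1 (h.lt hc ha hb e.symm h2).not_gt

theorem cf_cfg {a c b : ℤ} (hc : 0 ≤ c) (ha : c ≤ a) (hb : 0 ≤ b) : Cf (cfg p κ i i' j a c b) := by
  refine ⟨fun k l e => h.cf.1 ?_, fun k => ?_⟩
  · have e' : κ k % p = κ l % p := by rw [← cfg_mod (i := i) (i' := i') (j := j) a c b, e, cfg_mod]
    exact le_antisymm (not_lt.1 fun n => (h.lt hc ha hb e'.symm n).ne' e) (not_lt.1 fun n => (h.lt hc ha hb e' n).ne e)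
  · have : 0 ≤ κ k := h.cf.2 k
    have := hc.trans ha
    rw [h.app, Pi.zero_apply]; split_ifs <;> positivity

theorem vac_cfg {a c b : ℤ} (hc : 0 ≤ c) (ha : c ≤ a) (hb : 0 ≤ b) : vac p (cfg p κ i i' j a c b) = κ := by
  rw [← h.dc.vac_eq hp.out.pos h.cf]
  conv_lhs => rw [h.dc.vac_eq hp.out.pos h.cf]
  funext k
  rw [vac, vac, cfg_mod]
  congr 4
  ext l
  simp only [ab, mem_filter, mem_univ, true_and, cfg_mod, and_congr_right_iff]
  exact h.lt_iff hc ha hb

omit h in
theorem mv_i (a c b t : ℤ) : cfg p κ i i' j a c b + Pi.single i (-(p * t)) = cfg p κ i i' j (a - t) c b := by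
  simp only [cfg, mul_sub, sub_eq_add_neg, mul_add, mul_neg, Pi.single_add]; abel

omit h in
theorem mv_i' (a c b t : ℤ) : cfg p κ i i' j a c b + Pi.single i' (-(p * t)) = cfg p κ i i' j a (c - t) b := by
  simp only [cfg, mul_sub, sub_eq_add_neg, mul_add, mul_neg, Pi.single_add]; abel

omit h in
theorem mv_j (a c b t : ℤ) : cfg p κ i i' j a c b + Pi.single j (-(p * t)) = cfg p κ i i' j a c (b - t) := by
  simp only [cfg, mul_sub, sub_eq_add_neg, mul_add, mul_neg, Pi.single_add]; abel

theorem low_ne {k l : σ} {t : ℕ} (ht : 0 < t) (e : κ l = κ k - p * t) : l ≠ i ∧ l ≠ j ∧ l ≠ k ∧ (l = i' → k = i) := by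
  have h0 : (0 : ℤ) < p * t := by exact_mod_cast Nat.mul_pos hp.out.pos ht
  have h1 : κ k % p = κ l % p := by rw [e]; simp
  refine ⟨fun e' => ?_, fun e' => ?_, fun e' => ?_, fun e' => ?_⟩ <;> subst e'
  · have := h.ti k h1; omega
  · have := h.tj k h1; omega
  · omega
  · exact h.cf.1 ((h.ti k (h1.trans h.mod')).antisymm (le_of_mod (h1.trans h.mod').symm (by have := h.snd; omega)))

theorem not_i {t : ℕ} (ht : 0 < t) (b : ℤ) : ¬ Cf (cfg p κ i i' j (-t) 0 b) :=
  not_cf h.dc (k := i) ht (by rw [h.app]; simp [sub_eq_add_neg]) fun l e => by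
    have := h.low_ne ht e
    rw [h.app]; simp [this]

theorem not_i' (a : ℤ) {t : ℕ} (ht : 0 < t) (b : ℤ) : ¬ Cf (cfg p κ i i' j a (-t) b) :=
  not_cf h.dc (k := i') ht (by rw [h.app]; simp [sub_eq_add_neg, h.nes.1.symm]) fun l e => by
    have := h.low_ne ht e
    rw [h.app]; simp [this]

theorem not_j (a c : ℤ) {t : ℕ} (ht : 0 < t) : ¬ Cf (cfg p κ i i' j a c (-t)) :=
  not_cf h.dc (k := j) ht (by rw [h.app]; simp [sub_eq_add_neg, h.nes.2.1.symm, h.nes.2.2.symm]) fun l e => by
    have := h.low_ne ht e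
    rw [h.app]; simp [this, mt this.2.2.2 h.nes.2.1.symm]

theorem not_ii (c b : ℤ) : ¬ Cf (cfg p κ i i' j (c - 1) c b) := fun hc => h.nes.1 (hc.1 (by
  rw [h.app, h.app, h.snd]; simp [h.nes.1.symm]; ring))

theorem sum3 {Q : Type*} [AddCommMonoid Q] (a c b : ℤ) {t : ℕ} (ht : 0 < t) (f : (σ → ℤ) → Q) (hf : ∀ β, ¬ Cf β → f β = 0) :
    ∑ k, f (cfg p κ i i' j a c b + Pi.single k (-(p * t : ℤ))) =
      f (cfg p κ i i' j (a - t) c b) + f (cfg p κ i i' j a (c - t) b) + f (cfg p κ i i' j a c (b - t)) := by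
  obtain ⟨h1, h2, h3⟩ := h.nes
  rw [← sum_subset (subset_univ {i, i', j}) fun k _ hk => hf _ ?_, sum_insert (by simp [*]), sum_pair h3, mv_i, mv_i', mv_j,
    add_assoc]
  simp only [mem_insert, mem_singleton, not_or] at hk
  refine not_cf h.dc (k := k) ht (by simp [h.app, hk, sub_eq_add_neg]) fun l e => ?_
  have := h.low_ne ht e
  simp [h.app, this, mt this.2.2.2 hk.1]

open Classical in
theorem np_succ (w : ℕ) (a c b : ℤ) : np p (w + 1) (cfg p κ i i' j a c b) =
    (if Cf (cfg p κ i i' j (a - 1) c b) then np p w (cfg p κ i i' j (a - 1) c b) else 0) +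
    (if Cf (cfg p κ i i' j a (c - 1) b) then np p w (cfg p κ i i' j a (c - 1) b) else 0) +
    (if Cf (cfg p κ i i' j a c (b - 1)) then np p w (cfg p κ i i' j a c (b - 1)) else 0) := by
  simpa [np] using h.sum3 a c b one_pos (fun β => if Cf β then np p w β else 0) fun β hβ => if_neg hβ

theorem np0 (w a b : ℕ) (e : a + b = w) : np p w (cfg p κ i i' j a 0 b) = w.choose a := by
  induction w generalizing a b with
  | zero => simp [np, show a = 0 by omega]
  | succ w ih =>
    have h1 := h.not_i' a one_pos b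
    have h2 := h.not_i one_pos b
    have h3 := h.not_j a 0 one_pos
    rw [h.np_succ, zero_sub, if_neg (c := Cf (cfg p κ i i' j a (-1) b)) (by simpa using h1), add_zero]
    rcases a with _ | a <;> rcases b with _ | b
    · omega
    · rw [if_neg (by simpa using h2), if_pos (h.cf_cfg le_rfl (by omega) (by omega))]
      simpa using ih 0 b (by omega)
    · rw [if_neg (c := Cf (cfg p κ i i' j _ _ (_ - 1))) (by simpa using h3), if_pos (h.cf_cfg le_rfl (by omega) (by omega))]
      simpa [show a = w by omega] using ih a 0 (by omega)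
    · rw [if_pos (h.cf_cfg le_rfl (by omega) (by omega)), if_pos (h.cf_cfg le_rfl (by omega) (by omega)),
        Nat.choose_succ_succ', ← ih a (b + 1) (by omega), ← ih (a + 1) b (by omega)]
      simp

theorem np1 (w a b : ℕ) (e : a + 2 + b = w) : np p w (cfg p κ i i' j (a + 1) 1 b) = (a + 1) * w.choose (a + 2) := by
  induction w generalizing a b with
  | zero => omega
  | succ w ih =>
    have h2 := h.not_ii 1 b
    have h3 := h.not_j (a + 1) 1 one_pos
    have h4 := h.np0 w (a + 1) b (by omega)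
    rw [h.np_succ, sub_self, if_pos (h.cf_cfg le_rfl (by omega) (by omega)), Nat.choose_succ_succ', mul_add]
    push_cast at h4
    rw [h4]
    congr 1
    · rcases a with _ | a
      · rw [if_neg (by simpa using h2)]; simp
      · rw [if_pos (h.cf_cfg zero_le_one (by omega) (by omega)), add_mul _ 1, ← ih a b (by omega)]; simp
    · rcases b with _ | b
      · rw [if_neg (by simpa using h3), Nat.choose_eq_zero_of_lt (by omega), mul_zero]
      · rw [if_pos (h.cf_cfg zero_le_one (by omega) (by omega)), ← ih a b (by omega)]; simp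

end Tp

theorem val_choose {A B r s : ℕ} (h : B ≤ A) (hr : r < p) (hs : s ≤ r) :
    padicValNat p ((p * A + r).choose (p * B + s)) = padicValNat p (A.choose B) := by
  obtain ⟨C, rfl⟩ := Nat.exists_eq_add_of_le h
  obtain ⟨t, rfl⟩ := Nat.exists_eq_add_of_le hs
  have key : ∀ m n : ℕ, padicValNat p ((m + n).choose m) + padicValNat p m.factorial + padicValNat p n.factorial =
      padicValNat p (m + n).factorial := fun m n => by
    rw [← Nat.add_choose_mul_factorial_mul_factorial, Nat.choose_symm_add,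
      padicValNat.mul (mul_ne_zero (Nat.choose_pos (by omega)).ne' m.factorial_ne_zero) n.factorial_ne_zero,
      padicValNat.mul (Nat.choose_pos (by omega)).ne' m.factorial_ne_zero]
  have h1 := key B C
  have h2 := key (p * B + s) (p * C + t)
  rw [show p * B + s + (p * C + t) = p * (B + C) + (s + t) by ring, padicValNat_factorial_mul_add _ hr,
    padicValNat_factorial_mul_add _ (by omega), padicValNat_factorial_mul_add _ (by omega)] at h2
  simp only [padicValNat_factorial_mul] at h2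
  omega

theorem exists_val {w : ℕ} (h : p ≤ w) : (∃ a ≤ w, padicValNat p (w.choose a) = 1) ∨
    (¬ p ∣ w ∧ padicValNat p (w.choose (p + 1)) = 0) := by
  have h0 := hp.out.pos
  have key : ∀ q, 0 < q → p ∣ q → ∃ a ≤ q, padicValNat p (q.choose a) = 1 := fun q => by
    induction q using Nat.strong_induction_on with
    | _ q ih =>
      rintro hq ⟨u, rfl⟩
      have hu : 0 < u := Nat.pos_of_mul_pos_left hq
      by_cases h1 : p ∣ u
      · obtain ⟨a, h2, h3⟩ := ih u (by have := hp.out.one_lt; nlinarith) hu h1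
        exact ⟨p * a, by gcongr, by simpa [h3] using val_choose (p := p) h2 h0 le_rfl⟩
      · exact ⟨1, hq, by simp [padicValNat.mul h0.ne' hu.ne', padicValNat.eq_zero_of_not_dvd h1]⟩
  by_cases h1 : p ∣ w
  · exact .inl (key w (by omega) h1)
  have h2 := Nat.div_add_mod w p
  have h3 := Nat.mod_lt w h0
  have h4 := Nat.div_pos h h0
  by_cases h5 : p ∣ w / p
  · obtain ⟨a, h6, h7⟩ := key _ h4 h5
    refine .inl ⟨p * a, (Nat.mul_le_mul_left p h6).trans (Nat.mul_div_le w p), ?_⟩
    simpa [h2, h7] using val_choose (p := p) h6 h3 (Nat.zero_le _)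
  · refine .inr ⟨h1, ?_⟩
    have := val_choose (p := p) h4 h3 (s := 1) (Nat.pos_of_ne_zero fun e => h1 (Nat.dvd_of_mod_eq_zero e))
    simpa [h2, padicValNat.eq_zero_of_not_dvd h5] using this

/-- the beads of one runner -/
def qr (p : ℕ) (r : σ → Fin p) (s : Fin p) (α : σ → ℤ) : {k // r k = s} → ℤ := fun k => α k / p

theorem cf_iff {r : σ → Fin p} {α : σ → ℤ} (hr : ∀ k, α k % p = r k) : Cf α ↔ ∀ s, Cf (qr p r s α) := by
  have h0 : (0 : ℤ) < p := by exact_mod_cast hp.out.pos
  refine ⟨fun h s => ⟨fun k l e => Subtype.ext (h.1 ?_), fun k => Int.ediv_nonneg (h.2 k) h0.le⟩, fun h => ⟨fun k l e => ?_,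
    fun k => ?_⟩⟩
  · rw [← Int.emod_add_mul_ediv (α k) p, ← Int.emod_add_mul_ediv (α l) p, hr, hr, k.2, l.2, show α k / p = α l / p from e]
  · have h1 : r l = r k := Fin.ext (by have := hr k; rw [e, hr] at this; exact_mod_cast this)
    exact congrArg Subtype.val ((h (r k)).1 (a₁ := ⟨k, rfl⟩) (a₂ := ⟨l, h1⟩) (congrArg (· / (p : ℤ)) e))
  · exact (Int.ediv_nonneg_iff_of_pos h0).1 ((h (r k)).2 ⟨k, rfl⟩)

theorem qr_mv (r : σ → Fin p) (α : σ → ℤ) (s : Fin p) (k : {k // r k = s}) (t : Fin p) :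
    qr p r t (α + Pi.single k.1 (-(p : ℤ))) = Function.update (fun t => qr p r t α) s (qr p r s α + Pi.single k (-((1 : ℕ) : ℤ))) t := by
  have h0 : (p : ℤ) ≠ 0 := by exact_mod_cast hp.out.ne_zero
  rcases eq_or_ne t s with rfl | n
  · funext l
    simp only [qr, Function.update_self, Pi.add_apply, Pi.single_apply, Subtype.ext_iff]
    split_ifs
    · simpa using Int.add_mul_ediv_left (α l) (-1) h0
    · simp
  · funext l
    rw [Function.update_of_ne n]
    simp [qr, Pi.single_eq_of_ne (show l.1 ≠ k.1 from fun e => n (by rw [← l.2, e, k.2]))]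

theorem np_mul (r : σ → Fin p) (w : ℕ) {α : σ → ℤ} (h : Cf α) (hr : ∀ k, α k % p = r k) (ws : Fin p → ℕ)
    (hw : ∀ s, ∑ k, qr p r s α k = d0 {k // r k = s} + ws s) (e : ∑ s, ws s = w) :
    np p w α * ∏ s, (ws s).factorial = w.factorial * ∏ s, np 1 (ws s) (qr p r s α) := by
  classical
  induction w generalizing α ws with
  | zero => simp [sum_eq_zero_iff.1 e, np]
  | succ w ih =>
    rw [np, ← Fintype.sum_fiberwise r, sum_mul, Nat.factorial_succ, ← e, sum_mul, sum_mul]
    refine sum_congr rfl fun s _ => ?_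
    have hc : ∀ k : {k // r k = s}, Cf (α + Pi.single k.1 (-(p : ℤ))) ↔ Cf (qr p r s α + Pi.single k (-((1 : ℕ) : ℤ))) := fun k => by
      rw [cf_iff fun l => (mv_mod α _ l).trans (hr l)]
      simp only [qr_mv]
      exact ⟨fun h => by simpa using h s, fun h' t => by
        rcases eq_or_ne t s with rfl | n
        exacts [by simpa using h', by rw [Function.update_of_ne n]; exact (cf_iff hr).1 h t]⟩
    rcases hs : ws s with _ | v
    · rw [sum_eq_zero fun k _ => if_neg fun h' => ?_]
      · simp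
      have := d0_le ((hc k).1 h').1 ((hc k).1 h').2
      rw [sum_add_single, hw, hs] at this
      omega
    rw [← mul_prod_erase _ (fun s => (ws s).factorial) (mem_univ s), ← mul_prod_erase _ (fun s => np 1 _ _) (mem_univ s), hs,
      np, Nat.factorial_succ, sum_mul, sum_mul, mul_sum]
    refine sum_congr rfl fun k _ => ?_
    by_cases h' : Cf (α + Pi.single k.1 (-(p : ℤ)))
    swap
    · simp only [if_neg h', if_neg (mt (hc k).2 h'), zero_mul, mul_zero]
    have := ih h' (fun l => (mv_mod α _ l).trans (hr l)) (Function.update ws s v) (fun t => by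
      rw [qr_mv]
      rcases eq_or_ne t s with rfl | n
      · simp only [Function.update_self, sum_add_single, hw, hs]; push_cast; ring
      · simp only [Function.update_of_ne n, hw]) (by
      rw [sum_update_of_mem (mem_univ s)]
      rw [← add_sum_erase _ _ (mem_univ s), hs] at e
      rw [sdiff_singleton_eq_erase]; omega)
    rw [← mul_prod_erase _ _ (mem_univ s), ← mul_prod_erase _ (fun s => np 1 _ _) (mem_univ s),
      prod_congr rfl (g := fun s => (ws s).factorial) fun t ht => by rw [Function.update_of_ne (ne_of_mem_erase ht)],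
      prod_congr rfl (f := fun t => np 1 (Function.update ws s v t) _) (g := fun t => np 1 (ws t) (qr p r t α)) fun t ht => by
        rw [qr_mv, Function.update_of_ne (ne_of_mem_erase ht), Function.update_of_ne (ne_of_mem_erase ht)], qr_mv] at this
    simp only [Function.update_self] at this
    rw [if_pos h', if_pos ((hc k).1 h'), mul_assoc (v + 1), mul_assoc (v + 1), ← this]
    ring

theorem np_one_dvd {α : σ → ℤ} (h : Cf α) {m : ℕ} (e : ∑ i, α i = d0 σ + m) (hm : 2 * m ≤ Fintype.card σ) :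
    np 1 m α ∣ m.factorial := by
  obtain ⟨h1, ε, h2⟩ := T_one h e
  have h3 : th σ α (1 : Perm (Fin m)) = ((ε : ℤ) : ℂ) * np 1 m α := by
    rw [th, Perm.parts_partition, ← h2]; simp
  obtain ⟨χ, η, h4⟩ := exists_irr (Ω := Fin m) (by simpa using hm) (α := α) fun e => by
    rw [e, Pi.zero_apply] at h3
    exact mul_ne_zero (by simp) (Nat.cast_ne_zero.2 h1.ne') h3.symm
  have h5 := IsIrrCharacter.charDegree_dvd_card χ.2
  rw [h4, Pi.smul_apply, IsIrrCharacter.apply_one_eq_charDegree χ.2, smul_eq_mul] at h3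
  have h6 := congrArg Int.natAbs (show (η : ℤ) * charDegree χ.1 = ε * np 1 m α by exact_mod_cast h3)
  simp only [Int.natAbs_mul, Int.units_natAbs, one_mul, Int.natAbs_natCast] at h6
  simpa [h6, Fintype.card_perm] using h5

theorem Core.not_dvd_np {Ω : Type*} [Fintype Ω] [DecidableEq Ω] {w : ℕ} (hN : 2 * Fintype.card Ω ≤ Fintype.card σ)
    (hκ : Core p Ω κ w) (hw : w < p) {α : σ → ℤ} (h : Cf α) (hs : ∑ i, α i = d0 σ + Fintype.card Ω)
    (e : ∀ i, α i % p = κ i % p) : ¬ p ∣ np p w α := by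
  have h0 : (0 : ℤ) < p := by exact_mod_cast hp.out.pos
  have h1 : ∀ k, ∃ s : Fin p, κ k % p = s := fun k => ⟨⟨(κ k % p).toNat, by
    have := Int.emod_lt_of_pos (κ k) h0; omega⟩, (Int.toNat_of_nonneg (Int.emod_nonneg _ h0.ne')).symm⟩
  choose r hr using h1
  have hr' := fun k => (e k).trans (hr k)
  have h2 : ∀ s, ∃ m : ℕ, ∑ k, qr p r s α k = d0 {k // r k = s} + m := fun s =>
    Int.le.dest (d0_le ((cf_iff hr').1 h s).1 ((cf_iff hr').1 h s).2) |>.imp fun _ => Eq.symm
  choose ws hws using h2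
  have h3 : ∀ s, ∑ k, qr p r s κ k = d0 {k // r k = s} := fun s => by
    obtain ⟨u, hu⟩ := exists_perm_dc one_pos cf_δ.1 cf_δ.2 ((cf_iff hr).1 hκ.cf s) (fun k hk => by
      obtain ⟨l, hl⟩ := hκ.dc k (by simpa using (Int.le_ediv_iff_mul_le h0).1 hk)
      refine ⟨⟨l, Fin.ext (?_ : (r l : ℕ) = s)⟩, by simpa [qr, hl, sub_eq_add_neg] using Int.add_mul_ediv_left (κ k) (-1) h0.ne'⟩
      have := hr l
      rw [hl, Int.sub_emod_right, hr, k.2] at this
      exact_mod_cast this.symm) (by simp)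
    rw [hu, ← sum_δ]; exact Equiv.sum_comp u (δ _)
  have h4 : ∀ β : σ → ℤ, ∑ k, β k = ∑ k, β k % p + p * ∑ s, ∑ k, qr p r s β k := fun β => by
    simp only [qr]
    rw [Fintype.sum_fiberwise r fun k => β k / p, mul_sum, ← sum_add_distrib]
    simp only [Int.emod_add_mul_ediv]
  have h5 : ∑ s, ws s = w := by
    have h6 := h4 α
    have h7 := h4 κ
    have h8 := hκ.sum
    simp only [e, hws, h3, sum_add_distrib, mul_add] at h6 h7
    have : (p : ℤ) * ∑ s, (ws s : ℤ) = p * w := by omega
    exact_mod_cast mul_left_cancel₀ h0.ne' this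
  have h6 : ∀ s, 2 * w ≤ Fintype.card {k // r k = s} := fun s => by
    have h7 : ∀ t : Fin (2 * w), ∃ k : {k // r k = s}, κ k = s + p * t := fun t => by
      obtain ⟨k, hk⟩ := mem_range hκ.cf.1 hκ.cf.2 (m := Fintype.card Ω - p * w) (by have := hκ.sum; omega) (v := s + p * t)
        (by positivity) (by
          have h1 : s + p * t + p * w < p * w + p * w + p * w := by have := s.2; have := t.2; nlinarith
          have h2 := hκ.le
          zify at h1 h2 hN; omega)
      refine ⟨⟨k, Fin.ext ?_⟩, hk⟩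
      have := hr k
      rw [hk, Int.add_mul_emod_self_left, Int.emod_eq_of_lt (by positivity) (by exact_mod_cast s.2)] at this
      exact_mod_cast this.symm
    choose f hf using h7
    simpa using Fintype.card_le_of_injective f fun a b e => Fin.ext (by
      have := hf a
      rw [e, hf, add_right_inj, mul_right_inj' h0.ne'] at this
      exact_mod_cast this.symm)
  intro hd
  have h7 := hd.mul_right (∏ s, (ws s).factorial)
  rw [np_mul r w h hr' ws hws h5, hp.out.dvd_mul, hp.out.dvd_factorial, hp.out.prime.dvd_finsetProd_iff] at h7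
  obtain ⟨s, -, h8⟩ := h7.resolve_left hw.not_ge
  have h9 : ws s ≤ w := h5 ▸ single_le_sum (fun _ _ => Nat.zero_le _) (mem_univ s)
  have := hp.out.dvd_factorial.1 (h8.trans (np_one_dvd ((cf_iff hr').1 h s) (hws s) (by have := h6 s; omega)))
  omega

end Cfsg.Agent.SymC
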